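import Mathlib

set_option autoImplicit false

namespace Cfsg.Agent.Lib.Helper1

/-- if `K` normalizes `X`, every element of `K ⊔ X` is a product `k * x` -/
theorem exists_mul_of_mem_sup_normalizer {G : Type*} [Group G] {K X : Subgroup G}
    (hK : K ≤ Subgroup.normalizer (X : Set G)) {g : G} (hg : g ∈ K ⊔ X) :
    ∃ k ∈ K, ∃ x ∈ X, g = k * x := by
  let S : Subgroup G :=
    { carrier := {g | ∃ k ∈ K, ∃ x ∈ X, g = k * x}
      mul_mem' := by
        rintro _ _ ⟨k1, hk1, x1, hx1, rfl⟩ ⟨k2, hk2, x2, hx2, rfl⟩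
        refine ⟨k1 * k2, K.mul_mem hk1 hk2, (k2⁻¹ * x1 * k2) * x2, X.mul_mem ?_ hx2, by group⟩
        have h := (Subgroup.mem_normalizer_iff.1 (hK (K.inv_mem hk2)) x1).1 hx1
        rwa [inv_inv] at h
      one_mem' := ⟨1, K.one_mem, 1, X.one_mem, by simp⟩
      inv_mem' := by
        rintro _ ⟨k, hk, x, hx, rfl⟩
        refine ⟨k⁻¹, K.inv_mem hk, k * x⁻¹ * k⁻¹, ?_, by group⟩
        exact (Subgroup.mem_normalizer_iff.1 (hK hk) x⁻¹).1 (X.inv_mem hx) }
  have hKS : K ≤ S := fun k hk => ⟨k, hk, 1, X.one_mem, by simp⟩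
  have hXS : X ≤ S := fun x hx => ⟨1, K.one_mem, x, hx, by simp⟩
  exact (sup_le hKS hXS) hg

/-- a group whose trivial subgroup is maximal has prime order -/
theorem card_prime_of_bot_coatom {G : Type*} [Group G] (h : IsCoatom (⊥ : Subgroup G)) :
    (Nat.card G).Prime := by
  have hz : ∀ x : G, x ≠ 1 → Subgroup.zpowers x = ⊤ := by
    intro x hx
    apply h.2
    rw [bot_lt_iff_ne_bot]
    intro hb
    apply hx
    have : x ∈ Subgroup.zpowers x := Subgroup.mem_zpowers x
    rw [hb, Subgroup.mem_bot] at this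
    exact this
  have hnt : ∃ g : G, g ≠ 1 := by
    by_contra hcon
    push_neg at hcon
    apply h.1
    rw [eq_top_iff]
    intro x _
    rw [Subgroup.mem_bot]
    exact hcon x
  obtain ⟨g, hg⟩ := hnt
  have hn0 : orderOf g ≠ 0 := by
    intro h0
    have hg2 : g ^ 2 ≠ 1 := by
      intro h2
      have := orderOf_dvd_of_pow_eq_one h2
      rw [h0] at this
      omega
    have hmem : g ∈ Subgroup.zpowers (g ^ 2) := by rw [hz _ hg2]; trivial
    obtain ⟨k, hk⟩ := Subgroup.mem_zpowers_iff.1 hmem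
    have h3 : g ^ (2 * k - 1) = 1 := by
      have e : g ^ (2 * k - 1) = (g ^ 2) ^ k * g⁻¹ := by
        rw [zpow_sub, zpow_mul, zpow_one]
        norm_cast
      rw [e, hk, mul_inv_cancel]
    have h4 := (orderOf_dvd_iff_zpow_eq_one).2 h3
    rw [h0] at h4
    have h5 : (2 * k - 1 : ℤ) = 0 := by simpa using h4
    omega
  have hcard : Nat.card G = orderOf g := by
    rw [← Nat.card_zpowers, hz g hg]
    exact (Nat.card_congr Subgroup.topEquiv.toEquiv).symm
  rw [hcard]
  have hn1 : orderOf g ≠ 1 := by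
    intro h1
    exact hg (orderOf_eq_one_iff.1 h1)
  have hp := Nat.minFac_prime hn1
  have hpd := Nat.minFac_dvd (orderOf g)
  obtain ⟨d, hd⟩ := hpd
  have hd0 : d ≠ 0 := by
    rintro rfl
    rw [mul_zero] at hd
    exact hn0 hd
  have ho : orderOf (g ^ d) = (orderOf g).minFac := by
    rw [orderOf_pow_of_dvd hd0 (Dvd.intro_left _ hd.symm)]
    conv_lhs => rw [hd]
    exact Nat.mul_div_cancel _ (Nat.pos_of_ne_zero hd0)
  have hx1 : g ^ d ≠ 1 := by
    intro h1
    rw [h1, orderOf_one] at ho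
    exact hp.one_lt.ne ho
  have hcard2 : Nat.card G = orderOf (g ^ d) := by
    rw [← Nat.card_zpowers, hz _ hx1]
    exact (Nat.card_congr Subgroup.topEquiv.toEquiv).symm
  rw [← hcard, hcard2, ho]
  exact hp

end Cfsg.Agent.Lib.Helper1
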