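import Mathlib
import Cfsg.Prelude.Def_SolvableStructure
import Cfsg.Agent.Lib.Helper1.Basic
import Cfsg.Agent.Lib.Helper1.Misc
import Cfsg.Agent.Lib.Helper1.CLT
import Cfsg.Agent.Lib.Helper1.MinNormal
import Cfsg.Agent.Lib.Lead.Schmidt

set_option autoImplicit false

universe u

namespace Cfsg.Agent.Lib.Helper1

/-- a nontrivial finite solvable group has a normal subgroup of prime index -/
theorem exists_normal_prime_index {G : Type*} [Group G] [Finite G] [Nontrivial G]
    [Group.IsSolvable G] : ∃ M : Subgroup G, M.Normal ∧ M.index.Prime := by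
  have hlt : commutator G < ⊤ := IsSolvable.commutator_lt_top_of_nontrivial G
  rcases eq_top_or_exists_le_coatom (commutator G) with h | ⟨M, hM, hle⟩
  · exact absurd h hlt.ne
  have hMn : M.Normal := by
    constructor
    intro n hn g
    have h1 : g * n * g⁻¹ * n⁻¹ ∈ commutator G := by
      have := Subgroup.commutator_mem_commutator (Subgroup.mem_top g) (Subgroup.mem_top n)
      rw [commutatorElement_def] at this
      exact this
    have h2 : g * n * g⁻¹ = g * n * g⁻¹ * n⁻¹ * n := by group
    rw [h2]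
    exact M.mul_mem (hle h1) hn
  refine ⟨M, hMn, ?_⟩
  haveI := hMn
  have hbot : IsCoatom (⊥ : Subgroup (G ⧸ M)) := by
    constructor
    · intro hbt
      apply hM.1
      have h1 : (⊥ : Subgroup (G ⧸ M)).comap (QuotientGroup.mk' M) = M := by
        rw [MonoidHom.comap_bot, QuotientGroup.ker_mk']
      rw [← h1, hbt, Subgroup.comap_top]
    · intro K hK
      have h1 : M ≤ K.comap (QuotientGroup.mk' M) := by
        intro x hx
        rw [Subgroup.mem_comap]
        have : QuotientGroup.mk' M x = 1 := (QuotientGroup.eq_one_iff x).2 hx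
        rw [this]
        exact K.one_mem
      have hmap : (K.comap (QuotientGroup.mk' M)).map (QuotientGroup.mk' M) = K :=
        Subgroup.map_comap_eq_self_of_surjective (QuotientGroup.mk'_surjective M) K
      rcases eq_or_lt_of_le h1 with h2 | h2
      · exfalso
        apply hK.ne
        rw [← hmap, ← h2]
        symm
        rw [Subgroup.map_eq_bot_iff, QuotientGroup.ker_mk']
      · have h3 := hM.2 _ h2
        rw [← hmap, h3]
        exact Subgroup.map_top_of_surjective _ (QuotientGroup.mk'_surjective M)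
  have := card_prime_of_bot_coatom hbot
  rwa [Subgroup.index_eq_card]

/-- in a nilpotent subgroup `K`, a `p`-subgroup of index prime to `p` is normal -/
theorem le_normalizer_of_nilpotent {G : Type*} [Group G] [Finite G] (K P1 : Subgroup G)
    [Group.IsNilpotent K] (hle : P1 ≤ K) (p : ℕ) [Fact p.Prime] (hP1 : IsPGroup p P1)
    (hnd : ¬ p ∣ P1.relIndex K) : K ≤ Subgroup.normalizer (P1 : Set G) := by
  have hp' : IsPGroup p (P1.subgroupOf K) := hP1.comap_subtype
  have hnd' : ¬ p ∣ (P1.subgroupOf K).index := hnd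
  have hn : ((hp'.toSylow hnd' : Sylow p K) : Subgroup K).Normal := inferInstance
  rw [IsPGroup.toSylow_coe] at hn
  exact (Subgroup.normal_subgroupOf_iff_le_normalizer hle).1 hn

/-- order of a product with a normal subgroup meeting trivially -/
theorem card_sup_of_disjoint {G : Type*} [Group G] [Finite G] (A Q : Subgroup G) [Q.Normal]
    (hd : A ⊓ Q = ⊥) : Nat.card (A ⊔ Q : Subgroup G) = Nat.card A * Nat.card Q := by
  have h1 : (⊥ : Subgroup G).relIndex Q * Q.relIndex (A ⊔ Q) = (⊥ : Subgroup G).relIndex (A ⊔ Q) :=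
    Subgroup.relIndex_mul_relIndex _ _ _ bot_le le_sup_right
  rw [Subgroup.relIndex_bot_left, Subgroup.relIndex_bot_left] at h1
  have h2 : Q.relIndex (A ⊔ Q) = Nat.card A := by
    rw [Subgroup.relIndex_sup_right, ← Subgroup.inf_relIndex_right, inf_comm, hd,
      Subgroup.relIndex_bot_left]
  rw [← h1, h2, mul_comm]

/-- Structure of minimal non-nilpotent groups (Schmidt). -/
theorem schmidt_structure {G : Type u} [Group G] [Finite G] (hG : Cfsg.IsMinimalNonNilpotent G) :
    ∃ p q : ℕ, p.Prime ∧ q.Prime ∧ p ≠ q ∧ ∃ (P : Sylow p G) (Q : Sylow q G), IsCyclic P ∧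
      (Q : Subgroup G).Normal ∧ (P : Subgroup G) ⊔ Q = ⊤ ∧ ¬ (P : Subgroup G).Normal := by
  haveI hsolv : Group.IsSolvable G := Cfsg.Agent.Lib.Lead.schmidt _ G rfl (fun M hM => hG.2 M hM.1)
  have hnn : ¬ ∀ (p : ℕ) (_hp : Fact p.Prime) (P : Sylow p G), (P : Subgroup G).Normal := by
    intro h
    exact hG.1 (((Group.isNilpotent_of_finite_tfae (G := G)).out 0 3).2 h)
  push_neg at hnn
  obtain ⟨p, hpF, P, hPn⟩ := hnn
  haveI := hpF
  have hp : p.Prime := hpF.out
  haveI : Nontrivial G := by
    by_contra hnt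
    rw [not_nontrivial_iff_subsingleton] at hnt
    apply hPn
    constructor
    intro n hn g
    rw [Subsingleton.elim (g * n * g⁻¹) n]
    exact hn
  obtain ⟨M, hMn, hMi⟩ := exists_normal_prime_index (G := G)
  haveI := hMn
  have hMtop : M ≠ ⊤ := by
    intro h
    rw [h, Subgroup.index_top] at hMi
    exact Nat.not_prime_one hMi
  haveI hMnil : Group.IsNilpotent M := hG.2 M hMtop
  -- Sylow subgroups for primes other than the index of `M` are normal
  have key : ∀ (s : ℕ) [Fact s.Prime], s ≠ M.index → ∀ S : Sylow s G, (S : Subgroup G).Normal := by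
    intro s hsF hs S
    obtain SM : Sylow s M := default
    have hSMn : (SM : Subgroup M).Normal := inferInstance
    have hN := sylow_map_normal M SM hSMn
    have hNp : IsPGroup s ((SM : Subgroup M).map M.subtype) := SM.2.map _
    have hidx : ((SM : Subgroup M).map M.subtype).index = (SM : Subgroup M).index * M.index :=
      Subgroup.index_map_subtype _
    have hnd : ¬ s ∣ ((SM : Subgroup M).map M.subtype).index := by
      rw [hidx]
      intro hdvd
      rcases (Nat.Prime.dvd_mul hsF.out).1 hdvd with h | h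
      · exact SM.not_dvd_index h
      · exact hs ((Nat.prime_dvd_prime_iff_eq hsF.out hMi).1 h)
    haveI := hN
    exact sylow_normal_of_normal_pgroup _ hNp hnd S
  have hpM : p = M.index := by
    by_contra hne
    exact hPn (key p hne P)
  -- find `q`
  have hq : ∃ (q : ℕ) (_ : Fact q.Prime) (Q : Sylow q G), q ≠ p ∧ (P : Subgroup G) ⊔ Q = ⊤ := by
    by_contra hcon
    push_neg at hcon
    apply hPn
    have hall : ∀ (s : ℕ) [Fact s.Prime], s ≠ p → ∀ S : Sylow s G,
        (S : Subgroup G) ≤ Subgroup.normalizer ((P : Subgroup G) : Set G) := by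
      intro s hsF hs S
      have hne := hcon s hsF S hs
      haveI : Group.IsNilpotent ((P : Subgroup G) ⊔ S : Subgroup G) := hG.2 _ hne
      have h1 : ¬ p ∣ (P : Subgroup G).relIndex ((P : Subgroup G) ⊔ S) := by
        intro hd
        exact P.not_dvd_index (hd.trans (Subgroup.relIndex_dvd_index_of_le le_sup_left))
      exact le_sup_right.trans (le_normalizer_of_nilpotent _ _ le_sup_left p P.2 h1)
    have hidx : (Subgroup.normalizer ((P : Subgroup G) : Set G)).index = 1 := by
      by_contra hne
      obtain ⟨s, hs, hsd⟩ := Nat.exists_prime_and_dvd hne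
      haveI : Fact s.Prime := ⟨hs⟩
      by_cases hsp : s = p
      · subst hsp
        exact P.not_dvd_index (hsd.trans (Subgroup.index_dvd_of_le Subgroup.le_normalizer))
      · obtain S : Sylow s G := default
        exact S.not_dvd_index (hsd.trans (Subgroup.index_dvd_of_le (hall s hsp S)))
    rw [Subgroup.index_eq_one] at hidx
    exact Subgroup.normalizer_eq_top_iff.1 hidx
  obtain ⟨q, hqF, Q, hqp, hsup⟩ := hq
  haveI := hqF
  have hQn : (Q : Subgroup G).Normal := key q (by rw [← hpM]; exact hqp) Q
  haveI := hQn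
  refine ⟨p, q, hp, hqF.out, fun h => hqp h.symm, P, Q, ?_, hQn, hsup, hPn⟩
  -- cyclic
  have hdisj : ∀ P1 : Subgroup G, P1 ≤ P → P1 ⊓ (Q : Subgroup G) = ⊥ := by
    intro P1 hP1
    have := IsPGroup.disjoint_of_ne p q (fun h => hqp h.symm) _ _ (P.2.to_le hP1) Q.2
    exact disjoint_iff.1 this
  have hcardG : Nat.card G = Nat.card (P : Subgroup G) * Nat.card (Q : Subgroup G) := by
    rw [← card_sup_of_disjoint _ _ (hdisj _ le_rfl), hsup, Subgroup.card_top]
  have hclaim : ∀ P1 : Subgroup G, P1 ≤ P → P1 ≠ (P : Subgroup G) →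
      (Q : Subgroup G) ≤ Subgroup.normalizer (P1 : Set G) := by
    intro P1 hP1 hne
    have hc := card_sup_of_disjoint P1 (Q : Subgroup G) (hdisj P1 hP1)
    have hlt : Nat.card P1 < Nat.card (P : Subgroup G) := by
      rcases lt_or_eq_of_le (Subgroup.card_le_of_le hP1) with h | h
      · exact h
      · exact absurd (Subgroup.eq_of_le_of_card_ge hP1 h.ge) hne
    have hKne : P1 ⊔ (Q : Subgroup G) ≠ ⊤ := by
      intro h
      rw [h, Subgroup.card_top, hcardG] at hc
      have hQpos : 0 < Nat.card (Q : Subgroup G) := Nat.card_pos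
      have := Nat.eq_of_mul_eq_mul_right hQpos hc
      omega
    haveI : Group.IsNilpotent (P1 ⊔ (Q : Subgroup G) : Subgroup G) := hG.2 _ hKne
    have hrel : P1.relIndex (P1 ⊔ (Q : Subgroup G)) = Nat.card (Q : Subgroup G) := by
      have h1 : (⊥ : Subgroup G).relIndex P1 * P1.relIndex (P1 ⊔ (Q : Subgroup G)) =
          (⊥ : Subgroup G).relIndex (P1 ⊔ (Q : Subgroup G)) :=
        Subgroup.relIndex_mul_relIndex _ _ _ bot_le le_sup_left
      rw [Subgroup.relIndex_bot_left, Subgroup.relIndex_bot_left, hc] at h1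
      exact Nat.eq_of_mul_eq_mul_left Nat.card_pos h1
    have hnd : ¬ p ∣ P1.relIndex (P1 ⊔ (Q : Subgroup G)) := by
      rw [hrel]
      intro hd
      obtain ⟨k, hk⟩ := (IsPGroup.iff_card.1 Q.2)
      rw [hk] at hd
      exact hqp ((Nat.prime_dvd_prime_iff_eq hp hqF.out).1 (hp.dvd_of_dvd_pow hd)).symm
    exact le_sup_right.trans (le_normalizer_of_nilpotent _ _ le_sup_left p (P.2.to_le hP1) hnd)
  by_contra hnc
  apply hPn
  have hQN : (Q : Subgroup G) ≤ Subgroup.normalizer ((P : Subgroup G) : Set G) := by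
    intro y hy
    apply mem_normalizer_of_finite
    intro x hx
    have hz : Subgroup.zpowers x ≤ (P : Subgroup G) := by
      rw [Subgroup.zpowers_le]; exact hx
    have hzne : Subgroup.zpowers x ≠ (P : Subgroup G) := by
      intro heq
      apply hnc
      rw [isCyclic_iff_exists_zpowers_eq_top]
      refine ⟨⟨x, hx⟩, ?_⟩
      rw [eq_top_iff]
      rintro ⟨z, hz'⟩ _
      rw [← heq] at hz'
      obtain ⟨k, hk⟩ := Subgroup.mem_zpowers_iff.1 hz'
      rw [Subgroup.mem_zpowers_iff]
      refine ⟨k, ?_⟩
      apply Subtype.ext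
      simpa using hk
    have h1 := hclaim _ hz hzne hy
    exact hz ((Subgroup.mem_normalizer_iff.1 h1 x).1 (Subgroup.mem_zpowers x))
  have htop : Subgroup.normalizer ((P : Subgroup G) : Set G) = ⊤ := by
    rw [eq_top_iff, ← hsup]
    exact sup_le Subgroup.le_normalizer hQN
  exact Subgroup.normalizer_eq_top_iff.1 htop

end Cfsg.Agent.Lib.Helper1
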