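import Mathlib
import Cfsg.Prelude.Def_SolvableStructure
import Cfsg.Agent.Lib.Helper1.Basic
import Cfsg.Agent.Lib.Helper1.Misc
import Cfsg.Agent.Lib.Helper1.MinNormal
import Cfsg.Agent.Lib.Helper1.SchmidtStr

set_option autoImplicit false

universe u

namespace Cfsg.Agent.Lib.Helper1

open scoped commutatorElement

/-- a subgroup containing the commutator subgroup is normal -/
theorem normal_of_commutator_le {G : Type*} [Group G] (M : Subgroup G)
    (hle : commutator G ≤ M) : M.Normal := by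
  constructor
  intro n hn g
  have h1 : g * n * g⁻¹ * n⁻¹ ∈ commutator G := by
    have := Subgroup.commutator_mem_commutator (Subgroup.mem_top g) (Subgroup.mem_top n)
    rw [commutatorElement_def] at this
    exact this
  have h2 : g * n * g⁻¹ = g * n * g⁻¹ * n⁻¹ * n := by group
  rw [h2]
  exact M.mul_mem (hle h1) hn

/-- a normal subgroup with commutative quotient contains the commutator subgroup -/
theorem commutator_le_of_quotient_comm {G : Type*} [Group G] (M : Subgroup G) [M.Normal]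
    (h : ∀ a b : G ⧸ M, a * b = b * a) : commutator G ≤ M := by
  rw [commutator_def, Subgroup.commutator_le]
  intro a _ b _
  have h1 := h (QuotientGroup.mk' M a) (QuotientGroup.mk' M b)
  have h2 : QuotientGroup.mk' M ⁅a, b⁆ = 1 := by
    rw [commutatorElement_def, map_mul, map_mul, map_mul, map_inv, map_inv, h1]
    group
  exact (QuotientGroup.eq_one_iff _).1 h2

/-- a normal maximal subgroup has prime index -/
theorem index_prime_of_normal_coatom {G : Type*} [Group G] (M : Subgroup G) [M.Normal]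
    (hM : IsCoatom M) : M.index.Prime := by
  have hbot : IsCoatom (⊥ : Subgroup (G ⧸ M)) := by
    constructor
    · intro hbt
      apply hM.1
      have h1 : (⊥ : Subgroup (G ⧸ M)).comap (QuotientGroup.mk' M) = M := by
        rw [MonoidHom.comap_bot, QuotientGroup.ker_mk']
      rw [← h1, hbt, Subgroup.comap_top]
    · intro K hK
      have h1 : M ≤ K.comap (QuotientGroup.mk' M) := by
        intro x hx
        rw [Subgroup.mem_comap]
        have : QuotientGroup.mk' M x = 1 := (QuotientGroup.eq_one_iff x).2 hx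
        rw [this]
        exact K.one_mem
      have hmap : (K.comap (QuotientGroup.mk' M)).map (QuotientGroup.mk' M) = K :=
        Subgroup.map_comap_eq_self_of_surjective (QuotientGroup.mk'_surjective M) K
      rcases eq_or_lt_of_le h1 with h2 | h2
      · exfalso
        apply hK.ne
        rw [← hmap, ← h2]
        symm
        rw [Subgroup.map_eq_bot_iff, QuotientGroup.ker_mk']
      · have h3 := hM.2 _ h2
        rw [← hmap, h3]
        exact Subgroup.map_top_of_surjective _ (QuotientGroup.mk'_surjective M)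
  have := card_prime_of_bot_coatom hbot
  rwa [Subgroup.index_eq_card]

/-- in a finite nilpotent group the commutator subgroup consists of non-generators -/
theorem eq_top_of_sup_commutator {X : Type*} [Group X] [Finite X] [Group.IsNilpotent X]
    (H : Subgroup X) (h : H ⊔ commutator X = ⊤) : H = ⊤ := by
  rcases eq_top_or_exists_le_coatom H with h1 | ⟨M, hM, hle⟩
  · exact h1
  exfalso
  have hall : ∀ H : Subgroup X, IsCoatom H → H.Normal :=
    ((Group.isNilpotent_of_finite_tfae (G := X)).out 0 2).1 ‹Group.IsNilpotent X›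
  have hMn : M.Normal := hall M hM
  haveI := hMn
  have hpr := index_prime_of_normal_coatom M hM
  rw [Subgroup.index_eq_card] at hpr
  haveI : Fact (Nat.card (X ⧸ M)).Prime := ⟨hpr⟩
  haveI : IsCyclic (X ⧸ M) := isCyclic_of_prime_card rfl
  have hc : commutator X ≤ M := commutator_le_of_quotient_comm M (fun a b => mul_comm' a b)
  apply hM.1
  rw [eq_top_iff, ← h]
  exact sup_le hle hc

/-- central factors can be removed from commutators -/
theorem commutatorElement_central_mul_left {X : Type*} [Group X] (z a b : X)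
    (hz : ∀ g : X, g * z = z * g) : ⁅z * a, b⁆ = ⁅a, b⁆ := by
  rw [commutatorElement_def, commutatorElement_def, mul_inv_rev]
  calc z * a * b * (a⁻¹ * z⁻¹) * b⁻¹ = z * (a * b * a⁻¹) * z⁻¹ * b⁻¹ := by group
    _ = (a * b * a⁻¹) * z * z⁻¹ * b⁻¹ := by rw [hz]
    _ = a * b * a⁻¹ * b⁻¹ := by group

theorem commutatorElement_central_mul_right {X : Type*} [Group X] (z a b : X)
    (hz : ∀ g : X, g * z = z * g) : ⁅a, z * b⁆ = ⁅a, b⁆ := by
  rw [commutatorElement_def, commutatorElement_def, mul_inv_rev]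
  calc a * (z * b) * a⁻¹ * (b⁻¹ * z⁻¹) = (a * z) * (b * a⁻¹ * b⁻¹) * z⁻¹ := by group
    _ = z * a * (b * a⁻¹ * b⁻¹) * z⁻¹ := by rw [hz]
    _ = z * (a * b * a⁻¹ * b⁻¹) * z⁻¹ := by group
    _ = (a * b * a⁻¹ * b⁻¹) * z * z⁻¹ := by rw [hz]
    _ = a * b * a⁻¹ * b⁻¹ := by group

/-- every `q`-subgroup lies in a normal Sylow `q`-subgroup -/
theorem pgroup_le_normal_sylow {G : Type*} [Group G] [Finite G] {q : ℕ} [Fact q.Prime]
    (Q : Sylow q G) (hQ : (Q : Subgroup G).Normal) (A : Subgroup G) (hA : IsPGroup q A) :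
    A ≤ Q := by
  obtain ⟨Q', hQ'⟩ := hA.exists_le_sylow
  have hu := Sylow.unique_of_normal Q hQ
  have : Q' = Q := Subsingleton.elim _ _
  rw [← this]
  exact hQ'

/-- commutators in a proper subgroup of a minimal non-nilpotent group `P ⋉ Q` lie in `Q'` -/
theorem schmidt_proper_comm {G : Type u} [Group G] [Finite G] (hG : Cfsg.IsMinimalNonNilpotent G)
    (p q : ℕ) [Fact p.Prime] [Fact q.Prime] (hpq : p ≠ q) (P : Sylow p G) (Q : Sylow q G)
    (hcyc : IsCyclic P) (hQ : (Q : Subgroup G).Normal) (hsup : (P : Subgroup G) ⊔ Q = ⊤)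
    (K : Subgroup G) (hK : K ≠ ⊤) :
    ∀ a ∈ K, ∀ b ∈ K, ⁅a, b⁆ ∈ (commutator ↥(Q : Subgroup G)).map (Q : Subgroup G).subtype := by
  haveI := hQ
  haveI : Group.IsNilpotent K := hG.2 K hK
  obtain Sp : Sylow p K := default
  obtain Sq : Sylow q K := default
  have hSpn : (Sp : Subgroup K).Normal := inferInstance
  have hSqn : (Sq : Subgroup K).Normal := inferInstance
  have hdisj : (P : Subgroup G) ⊓ Q = ⊥ :=
    disjoint_iff.1 (IsPGroup.disjoint_of_ne p q hpq _ _ P.2 Q.2)
  have hcardG : Nat.card G = Nat.card (P : Subgroup G) * Nat.card (Q : Subgroup G) := by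
    rw [← card_sup_of_disjoint _ _ hdisj, hsup, Subgroup.card_top]
  have htop : (Sp : Subgroup K) ⊔ Sq = ⊤ := by
    rw [← Subgroup.index_eq_one]
    by_contra hne
    obtain ⟨s, hs, hsd⟩ := Nat.exists_prime_and_dvd hne
    have h1 : s ∣ Nat.card G :=
      (hsd.trans (Subgroup.index_dvd_card _)).trans (Subgroup.card_subgroup_dvd_card K)
    rw [hcardG] at h1
    obtain ⟨k1, hk1⟩ := IsPGroup.iff_card.1 P.2
    obtain ⟨k2, hk2⟩ := IsPGroup.iff_card.1 Q.2
    rw [hk1, hk2] at h1
    rcases (Nat.Prime.dvd_mul hs).1 h1 with h | h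
    · have : s = p := (Nat.prime_dvd_prime_iff_eq hs Fact.out).1 (hs.dvd_of_dvd_pow h)
      subst this
      exact Sp.not_dvd_index (hsd.trans (Subgroup.index_dvd_of_le le_sup_left))
    · have : s = q := (Nat.prime_dvd_prime_iff_eq hs Fact.out).1 (hs.dvd_of_dvd_pow h)
      subst this
      exact Sq.not_dvd_index (hsd.trans (Subgroup.index_dvd_of_le le_sup_right))
  have hSpc : ∀ x ∈ (Sp : Subgroup K), ∀ y ∈ (Sp : Subgroup K), x * y = y * x := by
    have hpg : IsPGroup p ((Sp : Subgroup K).map K.subtype) := Sp.2.map _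
    obtain ⟨P', hP'⟩ := hpg.exists_le_sylow
    haveI : IsCyclic P' :=
      isCyclic_of_surjective (Sylow.equiv P P') (Sylow.equiv P P').surjective
    intro x hx y hy
    have hx' : (x : G) ∈ (P' : Subgroup G) := hP' (Subgroup.mem_map_of_mem _ hx)
    have hy' : (y : G) ∈ (P' : Subgroup G) := hP' (Subgroup.mem_map_of_mem _ hy)
    apply Subtype.ext
    exact comm_of_isMulCommutative (A := (P' : Subgroup G)) hx' hy'
  have hcomm : ∀ x ∈ (Sp : Subgroup K), ∀ y ∈ (Sq : Subgroup K), x * y = y * x := by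
    intro x hx y hy
    have hd : Disjoint (Sp : Subgroup K) (Sq : Subgroup K) :=
      IsPGroup.disjoint_of_ne p q hpq _ _ Sp.2 Sq.2
    exact (Subgroup.commute_of_normal_of_disjoint _ _ hSpn hSqn hd x y hx hy).eq
  have hcent : ∀ x ∈ (Sp : Subgroup K), ∀ g : K, g * x = x * g := by
    intro x hx g
    have hg : g ∈ (Sp : Subgroup K) ⊔ Sq := by rw [htop]; trivial
    obtain ⟨a, ha, b, hb, rfl⟩ := (Subgroup.mem_sup_of_normal_right (t := (Sq : Subgroup K))).1 hg
    rw [mul_assoc, ← hcomm x hx b hb, ← mul_assoc, hSpc a ha x hx, mul_assoc]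
  have hSqQ : ∀ y ∈ (Sq : Subgroup K), (y : G) ∈ (Q : Subgroup G) := by
    intro y hy
    have hqg : IsPGroup q ((Sq : Subgroup K).map K.subtype) := Sq.2.map _
    exact pgroup_le_normal_sylow Q hQ _ hqg (Subgroup.mem_map_of_mem _ hy)
  intro a ha b hb
  have ha' : (⟨a, ha⟩ : K) ∈ (Sp : Subgroup K) ⊔ Sq := by rw [htop]; trivial
  have hb' : (⟨b, hb⟩ : K) ∈ (Sp : Subgroup K) ⊔ Sq := by rw [htop]; trivial
  obtain ⟨x1, hx1, y1, hy1, e1⟩ := (Subgroup.mem_sup_of_normal_right (t := (Sq : Subgroup K))).1 ha'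
  obtain ⟨x2, hx2, y2, hy2, e2⟩ := (Subgroup.mem_sup_of_normal_right (t := (Sq : Subgroup K))).1 hb'
  have hc : ⁅(⟨a, ha⟩ : K), ⟨b, hb⟩⁆ = ⁅y1, y2⁆ := by
    rw [← e1, ← e2, commutatorElement_central_mul_left _ _ _ (hcent x1 hx1),
      commutatorElement_central_mul_right _ _ _ (hcent x2 hx2)]
  have hab : ⁅a, b⁆ = ((⁅y1, y2⁆ : K) : G) := by rw [← hc]; rfl
  rw [hab]
  refine ⟨⁅(⟨y1, hSqQ y1 hy1⟩ : (Q : Subgroup G)), (⟨y2, hSqQ y2 hy2⟩ : (Q : Subgroup G))⁆, ?_, rfl⟩
  rw [commutator_def]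
  exact Subgroup.commutator_mem_commutator (Subgroup.mem_top _) (Subgroup.mem_top _)

/-- the Frattini-type argument: `G / Q'` is not abelian -/
theorem schmidt_not_comm {G : Type u} [Group G] [Finite G]
    (p q : ℕ) [Fact p.Prime] [Fact q.Prime] (P : Sylow p G) (Q : Sylow q G)
    (hsup : (P : Subgroup G) ⊔ Q = ⊤) (hPn : ¬ (P : Subgroup G).Normal) :
    ¬ (commutator G ≤ (commutator ↥(Q : Subgroup G)).map (Q : Subgroup G).subtype) := by
  intro hle
  obtain ⟨D, hDdef⟩ : ∃ D, D = (commutator ↥(Q : Subgroup G)).map (Q : Subgroup G).subtype :=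
    ⟨_, rfl⟩
  rw [← hDdef] at hle
  have hDQ : D ≤ Q := by rw [hDdef]; exact Subgroup.map_subtype_le _
  haveI hDn : D.Normal := normal_of_commutator_le D hle
  have hNn : ((P : Subgroup G) ⊔ D).Normal := normal_of_commutator_le _ (hle.trans le_sup_right)
  haveI := hNn
  have hfr := Sylow.normalizer_sup_eq_top' P (le_sup_left : (P : Subgroup G) ≤ (P : Subgroup G) ⊔ D)
  have hND : Subgroup.normalizer ((P : Subgroup G) : Set G) ⊔ D = ⊤ := by
    rw [eq_top_iff, ← hfr]
    exact sup_le le_sup_left (sup_le (Subgroup.le_normalizer.trans le_sup_left) le_sup_right)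
  have hQN : (Q : Subgroup G) ≤ Subgroup.normalizer ((P : Subgroup G) : Set G) := by
    haveI : Group.IsNilpotent (Q : Subgroup G) := Q.2.isNilpotent
    have hH : ((Subgroup.normalizer ((P : Subgroup G) : Set G)).subgroupOf (Q : Subgroup G)) = ⊤ := by
      apply eq_top_of_sup_commutator
      rw [eq_top_iff]
      rintro ⟨y, hy⟩ -
      have hy' : y ∈ Subgroup.normalizer ((P : Subgroup G) : Set G) ⊔ D := by rw [hND]; trivial
      obtain ⟨n, hn, d, hd, e⟩ := (Subgroup.mem_sup_of_normal_right (t := D)).1 hy'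
      have hdQ : d ∈ (Q : Subgroup G) := hDQ hd
      have hnQ : n ∈ (Q : Subgroup G) := by
        have : n = y * d⁻¹ := by rw [← e]; group
        rw [this]; exact mul_mem hy (inv_mem hdQ)
      rw [hDdef] at hd
      obtain ⟨d', hd', rfl⟩ := hd
      have : (⟨y, hy⟩ : (Q : Subgroup G)) = ⟨n, hnQ⟩ * d' := Subtype.ext e.symm
      rw [this]
      exact Subgroup.mul_mem_sup (Subgroup.mem_subgroupOf.2 hn) hd'
    rw [Subgroup.subgroupOf_eq_top] at hH
    exact hH
  apply hPn
  have htop : Subgroup.normalizer ((P : Subgroup G) : Set G) = ⊤ := by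
    rw [eq_top_iff, ← hsup]
    exact sup_le Subgroup.le_normalizer hQN
  exact Subgroup.normalizer_eq_top_iff.1 htop

end Cfsg.Agent.Lib.Helper1
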