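import Mathlib
import Cfsg.Prelude.Def_LieExceptional
import Cfsg.Agent.S4252
import Cfsg.Agent.S0035
import Cfsg.Agent.S0034
import Cfsg.Agent.Lib.Helper1.Sharp6

/-!
Normal subgroups of finite Zassenhaus groups (helper1).
-/

namespace Cfsg.Agent.Lib.Helper1

open Cfsg

/-- The Frobenius kernel of a Frobenius action: the identity and the fixed-point-free elements
form a normal subgroup of order the degree. -/
theorem frob_kernel {G Ω : Type*} [Group G] [Finite G] [Fintype Ω] [MulAction G Ω]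
    (hΩ : 1 < Fintype.card Ω)
    (htrans : ∀ α β : Ω, ∃ g : G, g • α = β) (hnreg : ∃ g : G, g ≠ 1 ∧ ∃ α : Ω, g • α = α)
    (hfix : ∀ g : G, g ≠ 1 → ∀ α β : Ω, g • α = α → g • β = β → α = β) :
    ∃ K : Subgroup G, K.Normal ∧ (∀ g : G, g ∈ K ↔ g = 1 ∨ ∀ ω : Ω, g • ω ≠ ω) ∧
      Nat.card K = Fintype.card Ω := by
  obtain ⟨α⟩ : Nonempty Ω := Fintype.card_pos_iff.1 (by omega)
  obtain ⟨hF, hker⟩ := Cfsg.Agent.S4252.result hΩ htrans hnreg hfix α
  obtain ⟨K, hK, hKn, -⟩ := Cfsg.Agent.S0035.result _ hF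
  obtain ⟨hcard, -⟩ := Cfsg.Agent.S0034.result _ hF
  refine ⟨K, hKn, ?_, ?_⟩
  · intro g
    have : g ∈ (K : Set G) ↔ g ∈ {g : G | g = 1 ∨ ∀ ω : Ω, g • ω ≠ ω} := by rw [hK, hker]
    exact this
  · have h1 : Nat.card K = Nat.card (Cfsg.frobeniusKernel (MulAction.stabilizer G α)) := by
      rw [← hK]
      rfl
    rw [h1, hcard]
    haveI : MulAction.IsPretransitive G Ω := ⟨htrans⟩
    rw [MulAction.index_stabilizer_of_transitive, Nat.card_eq_fintype_card]

section
variable {G Ω : Type*} [Group G] [MulAction G Ω]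

/-- The core facts on a nontrivial normal subgroup of a finite Zassenhaus group. -/
theorem zass_core [Finite G] [Fintype Ω] [DecidableEq Ω] (hZ : IsZassenhausGroup G Ω)
    (N : Subgroup G) [hNn : N.Normal] (hN : N ≠ ⊥) :
    3 ≤ Fintype.card Ω ∧ (∀ α β : Ω, ∃ n ∈ N, n • α = β) ∧
    ∃ a : Ω, (∃ l ∈ N, l ≠ 1 ∧ l • a = a ∧ ∃ b, b ≠ a ∧ l • b = b) ∧
      ∃ Kf : Finset G, (∀ k ∈ Kf, k ∈ N) ∧ (∀ k ∈ Kf, k • a = a) ∧
        (∀ ω ω' : Ω, ω ≠ a → ω' ≠ a → ∃ k ∈ Kf, k • ω = ω') := by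
  classical
  haveI : Fintype G := Fintype.ofFinite G
  obtain ⟨hfaith, h2t, h3, hex, hNreg⟩ := hZ
  have h2 : ∀ {a b c d : Ω}, a ≠ b → c ≠ d → ∃ g : G, g • a = c ∧ g • b = d :=
    fun h h' => (MulAction.is_two_pretransitive_iff (G := G) (α := Ω)).mp h2t h h'
  have hmove : ∀ g : G, g ≠ 1 → ∃ ω : Ω, g • ω ≠ ω := by
    intro g hg
    by_contra hcon
    push Not at hcon
    apply hg
    apply hfaith.eq_of_smul_eq_smul
    intro ω
    rw [hcon ω, one_smul]
  -- at least three points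
  have hcard3 : 3 ≤ Fintype.card Ω := by
    obtain ⟨g, hg1, a', b', hab', hga, hgb⟩ := hex
    obtain ⟨c, hc⟩ := hmove g hg1
    have hca : c ≠ a' := by rintro rfl; exact hc hga
    have hcb : c ≠ b' := by rintro rfl; exact hc hgb
    have : ({a', b', c} : Finset Ω).card = 3 := by
      rw [Finset.card_insert_of_notMem, Finset.card_pair (Ne.symm hcb)]
      simp [hab', Ne.symm hca]
    rw [← this]
    exact Finset.card_le_univ _
  -- N is transitive
  have htransN : ∀ α β : Ω, ∃ n ∈ N, n • α = β := by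
    obtain ⟨n, hn1⟩ := (Subgroup.ne_bot_iff_exists_ne_one (H := N)).1 hN
    have hn1' : (n : G) ≠ 1 := fun h => hn1 (Subtype.ext h)
    obtain ⟨ω, hω⟩ := hmove n hn1'
    intro α β
    by_cases hαβ : α = β
    · exact ⟨1, N.one_mem, by rw [one_smul, hαβ]⟩
    · obtain ⟨g, hg1, hg2⟩ := h2 (Ne.symm hω) hαβ
      refine ⟨g * n * g⁻¹, hNn.conj_mem n.1 n.2 g, ?_⟩
      rw [mul_smul, mul_smul, inv_smul_eq_iff.2 hg1.symm, hg2]
  refine ⟨hcard3, htransN, ?_⟩
  -- a point with nontrivial stabiliser in N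
  haveI : MulAction.IsPretransitive ↥N Ω :=
    ⟨fun α β => by
      obtain ⟨n, hn, h⟩ := htransN α β
      exact ⟨⟨n, hn⟩, h⟩⟩
  obtain ⟨a, ha⟩ := hNreg N hNn inferInstance
  obtain ⟨u, hu1⟩ := (Subgroup.ne_bot_iff_exists_ne_one (H := MulAction.stabilizer ↥N a)).1 ha
  have hua : (u.1.1 : G) • a = a := u.2
  refine ⟨a, ?_⟩
  -- the Frobenius kernel of the stabiliser of a
  have hc := card_ptCompl (G := G) a
  obtain ⟨b₀, hb₀⟩ : ∃ b₀ : Ω, b₀ ≠ a := by
    by_contra hcon
    push Not at hcon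
    have : Fintype.card Ω ≤ 1 := Fintype.card_le_one_iff.2 (fun x y => by rw [hcon x, hcon y])
    omega
  have key := frob_kernel (G := ↥(MulAction.stabilizer G a)) (Ω := ↥(ptCompl (G := G) a))
    (by rw [hc]; omega)
    (by
      intro α β
      obtain ⟨g, hg1, hg2⟩ := h2 (Ne.symm α.2) (Ne.symm β.2)
      exact ⟨⟨g, hg1⟩, Subtype.ext hg2⟩)
    (by
      obtain ⟨g, hg1, a', b', hab', hga, hgb⟩ := hex
      obtain ⟨t, ht1, ht2⟩ := h2 hab' (Ne.symm hb₀)
      have hfa : (t * g * t⁻¹) • a = a := by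
        rw [mul_smul, mul_smul, inv_smul_eq_iff.2 ht1.symm, hga, ht1]
      have hfb : (t * g * t⁻¹) • b₀ = b₀ := by
        rw [mul_smul, mul_smul, inv_smul_eq_iff.2 ht2.symm, hgb, ht2]
      refine ⟨⟨t * g * t⁻¹, hfa⟩, ?_, ⟨b₀, hb₀⟩, Subtype.ext hfb⟩
      intro h
      have h' : t * g * t⁻¹ = 1 := congrArg Subtype.val h
      apply hg1
      have : g = t⁻¹ * (t * g * t⁻¹) * t := by group
      rw [this, h']
      group)
    (by
      intro g hg α β hα hβ
      by_contra hne
      apply hg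
      apply Subtype.ext
      have h0 : g.1 • a = a := g.2
      exact h3 g.1 a α.1 β.1 (Ne.symm α.2) (fun h => hne (Subtype.ext h)) (Ne.symm β.2) h0
        (congrArg Subtype.val hα) (congrArg Subtype.val hβ))
  obtain ⟨K, hKnorm, hKmem, hcardK⟩ := key
  rw [hc] at hcardK
  obtain ⟨Kf, hKfdef⟩ : ∃ Kf : Finset G, Kf = (Finset.univ : Finset ↥K).image
      (fun k => (k.1.1 : G)) := ⟨_, rfl⟩
  have hlift : ∀ g ∈ Kf, ∃ k : ↥K, (k.1.1 : G) = g := by
    intro g hg
    rw [hKfdef, Finset.mem_image] at hg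
    obtain ⟨k, -, hk⟩ := hg
    exact ⟨k, hk⟩
  have hdown : ∀ k : ↥K, (k.1.1 : G) ∈ Kf := by
    intro k
    rw [hKfdef, Finset.mem_image]
    exact ⟨k, Finset.mem_univ _, rfl⟩
  have hKfcard : Kf.card = Fintype.card Ω - 1 := by
    rw [hKfdef, Finset.card_image_of_injective, Finset.card_univ, ← Nat.card_eq_fintype_card,
      hcardK]
    intro k k' h
    exact Subtype.ext (Subtype.ext h)
  have hKf : ∀ g, g ∈ Kf ↔ (g • a = a ∧ (g = 1 ∨ ∀ ω, ω ≠ a → g • ω ≠ ω)) := by
    intro g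
    constructor
    · intro hg
      obtain ⟨k, rfl⟩ := hlift g hg
      have h0 : k.1.1 • a = a := k.1.2
      refine ⟨h0, ?_⟩
      rcases (hKmem k.1).1 k.2 with h1 | hfp
      · left
        rw [h1]
        rfl
      · right
        intro ω hω hfix
        exact hfp ⟨ω, hω⟩ (Subtype.ext hfix)
    · rintro ⟨h0, hfp⟩
      have hk : (⟨g, h0⟩ : ↥(MulAction.stabilizer G a)) ∈ K := by
        rw [hKmem]
        rcases hfp with rfl | hfp
        · left
          rfl
        · right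
          intro x hfix
          exact hfp x.1 x.2 (congrArg Subtype.val hfix)
      exact hdown ⟨⟨g, h0⟩, hk⟩
  have hKmul : ∀ g ∈ Kf, ∀ g' ∈ Kf, g * g' ∈ Kf := by
    intro g hg g' hg'
    obtain ⟨k, rfl⟩ := hlift g hg
    obtain ⟨k', rfl⟩ := hlift g' hg'
    exact hdown (k * k')
  have hKinv : ∀ g ∈ Kf, g⁻¹ ∈ Kf := by
    intro g hg
    obtain ⟨k, rfl⟩ := hlift g hg
    exact hdown k⁻¹
  have hsemi : ∀ g ∈ Kf, ∀ ω, ω ≠ a → g • ω = ω → g = 1 := by
    intro g hg ω h3' hfix
    rcases ((hKf g).1 hg).2 with h | h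
    · exact h
    · exact absurd hfix (h ω h3')
  have hconj : ∀ t : G, t • a = a → ∀ g ∈ Kf, t * g * t⁻¹ ∈ Kf := by
    intro t ht g hg
    rw [hKf] at hg ⊢
    obtain ⟨g0, gfp⟩ := hg
    refine ⟨?_, ?_⟩
    · rw [mul_smul, mul_smul, inv_smul_eq_iff.2 ht.symm, g0, ht]
    · rcases gfp with rfl | gfp
      · left
        group
      · right
        intro ω hω hfix
        rw [mul_smul, mul_smul] at hfix
        have hfix' : g • t⁻¹ • ω = t⁻¹ • ω := by
          rw [eq_inv_smul_iff]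
          exact hfix
        refine gfp (t⁻¹ • ω) ?_ hfix'
        intro h
        rw [inv_smul_eq_iff] at h
        exact hω (h.trans ht)
  have hinj : ∀ ω₀, ω₀ ≠ a → ∀ g ∈ Kf, ∀ g' ∈ Kf, g • ω₀ = g' • ω₀ → g = g' := by
    intro ω₀ h0 g hg g' hg' h
    have h1 := hsemi (g⁻¹ * g') (hKmul _ (hKinv g hg) _ hg') ω₀ h0
      (by rw [mul_smul, ← h, inv_smul_smul])
    exact (inv_mul_eq_one.1 h1)
  have hreg : ∀ ω ω' : Ω, ω ≠ a → ω' ≠ a → ∃ k ∈ Kf, k • ω = ω' := by
    intro ω ω' hω hω'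
    have hsub : Kf.image (fun g => g • ω) ⊆ Finset.univ \ {a} := by
      intro x hx
      rw [Finset.mem_image] at hx
      obtain ⟨g, hg, rfl⟩ := hx
      obtain ⟨g0, -⟩ := (hKf g).1 hg
      simp only [Finset.mem_sdiff, Finset.mem_univ, Finset.mem_singleton, true_and]
      intro h
      rw [← g0] at h
      exact hω (MulAction.injective g h)
    have hcardimg : (Kf.image (fun g => g • ω)).card = Kf.card :=
      Finset.card_image_of_injOn (fun g hg g' hg' h => hinj ω hω g hg g' hg' h)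
    have heq := Finset.eq_of_subset_of_card_le hsub (by
      rw [hcardimg, hKfcard, Finset.card_univ_sdiff, Finset.card_singleton])
    have hmem : ω' ∈ Kf.image (fun g => g • ω) := by
      rw [heq]
      simp [hω']
    rw [Finset.mem_image] at hmem
    exact hmem
  -- the dichotomy
  by_cases hcase : ∃ l ∈ N, l ≠ 1 ∧ l • a = a ∧ ∃ b, b ≠ a ∧ l • b = b
  · refine ⟨hcase, Kf, ?_, fun k hk => ((hKf k).1 hk).1, hreg⟩
    obtain ⟨l, hlN, hl1, hla, b, hba, hlb⟩ := hcase
    have hψK : ∀ k ∈ Kf, k * l * k⁻¹ * l⁻¹ ∈ Kf := by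
      intro k hk
      have h1 : l * k⁻¹ * l⁻¹ ∈ Kf := hconj l hla _ (hKinv k hk)
      have h2' := hKmul k hk _ h1
      have e : k * (l * k⁻¹ * l⁻¹) = k * l * k⁻¹ * l⁻¹ := by group
      rw [← e]
      exact h2'
    have hψinj : Set.InjOn (fun k => k * l * k⁻¹ * l⁻¹) (Kf : Set G) := by
      intro k hk k' hk' h
      have h1 : k * l * k⁻¹ = k' * l * k'⁻¹ := mul_right_cancel h
      have hcomm : (k'⁻¹ * k) * l = l * (k'⁻¹ * k) := by
        calc (k'⁻¹ * k) * l = k'⁻¹ * (k * l * k⁻¹) * k := by group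
          _ = k'⁻¹ * (k' * l * k'⁻¹) * k := by rw [h1]
          _ = l * (k'⁻¹ * k) := by group
      have hcK : k'⁻¹ * k ∈ Kf := hKmul _ (hKinv k' hk') _ hk
      have hfix : l • ((k'⁻¹ * k) • b) = (k'⁻¹ * k) • b := by
        rw [← mul_smul, ← hcomm, mul_smul, hlb]
      have hcb : (k'⁻¹ * k) • b = b := by
        by_contra hne
        apply hl1
        refine h3 l a b ((k'⁻¹ * k) • b) (Ne.symm hba) (Ne.symm hne) ?_ hla hlb hfix
        intro h
        have h0 : (k'⁻¹ * k) • a = a := ((hKf _).1 hcK).1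
        rw [← h0] at h
        exact hba (MulAction.injective _ h).symm
      have := hsemi _ hcK b hba hcb
      exact (inv_mul_eq_one.1 this).symm
    have himg : Kf.image (fun k => k * l * k⁻¹ * l⁻¹) = Kf := by
      apply Finset.eq_of_subset_of_card_le
      · intro x hx
        rw [Finset.mem_image] at hx
        obtain ⟨k, hk, rfl⟩ := hx
        exact hψK k hk
      · rw [Finset.card_image_of_injOn hψinj]
    intro k₀ hk₀
    rw [← himg, Finset.mem_image] at hk₀
    obtain ⟨k, hk, rfl⟩ := hk₀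
    exact N.mul_mem (hNn.conj_mem l hlN k) (N.inv_mem hlN)
  · -- N would be a Frobenius group, and its kernel a regular normal subgroup
    exfalso
    push Not at hcase
    have keyN := frob_kernel (G := ↥N) (Ω := Ω) (by omega)
      (fun α β => by
        obtain ⟨n, hn, h⟩ := htransN α β
        exact ⟨⟨n, hn⟩, h⟩)
      ⟨u.1, fun h => hu1 (Subtype.ext h), a, hua⟩
      (by
        intro n hn α β hα hβ
        by_contra hne
        obtain ⟨n', hn'N, hn'⟩ := htransN α a
        have hl1 : n' * n.1 * n'⁻¹ ≠ 1 := by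
          intro h
          apply hn
          apply Subtype.ext
          have : (n.1 : G) = n'⁻¹ * (n' * n.1 * n'⁻¹) * n' := by group
          rw [this, h]
          show n'⁻¹ * 1 * n' = 1
          group
        have hla : (n' * n.1 * n'⁻¹) • a = a := by
          rw [mul_smul, mul_smul, inv_smul_eq_iff.2 hn'.symm]
          have : (n.1 : G) • α = α := hα
          rw [this, hn']
        have hlb : (n' * n.1 * n'⁻¹) • (n' • β) = n' • β := by
          rw [mul_smul, mul_smul, inv_smul_smul]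
          have : (n.1 : G) • β = β := hβ
          rw [this]
        refine hcase (n' * n.1 * n'⁻¹) (hNn.conj_mem n.1 n.2 n') hl1 hla (n' • β) ?_ hlb
        intro h
        rw [← hn'] at h
        exact hne (MulAction.injective n' h).symm)
    obtain ⟨M, hMn, hMmem, hMcard⟩ := keyN
    -- its image in G
    have hM'mem : ∀ g : G, g ∈ M.map N.subtype ↔ g ∈ N ∧ (g = 1 ∨ ∀ ω : Ω, g • ω ≠ ω) := by
      intro g
      rw [Subgroup.mem_map]
      constructor
      · rintro ⟨m, hm, rfl⟩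
        refine ⟨m.2, ?_⟩
        rcases (hMmem m).1 hm with h | h
        · left
          rw [h]
          rfl
        · right
          exact h
      · rintro ⟨hgN, hg⟩
        refine ⟨⟨g, hgN⟩, ?_, rfl⟩
        rw [hMmem]
        rcases hg with rfl | hg
        · left
          rfl
        · right
          exact hg
    have hM'n : (M.map N.subtype).Normal := by
      constructor
      intro m hm g
      rw [hM'mem] at hm ⊢
      refine ⟨hNn.conj_mem m hm.1 g, ?_⟩
      rcases hm.2 with rfl | hfp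
      · left
        group
      · right
        intro ω hfix
        rw [mul_smul, mul_smul] at hfix
        refine hfp (g⁻¹ • ω) ?_
        rw [eq_inv_smul_iff]
        exact hfix
    have hM'card : Nat.card ↥(M.map N.subtype) = Fintype.card Ω := by
      rw [Subgroup.card_map_of_injective N.subtype_injective, hMcard]
    have hM'semi : ∀ m : ↥(M.map N.subtype), ∀ ω : Ω, m • ω = ω → m = 1 := by
      intro m ω hfix
      rcases ((hM'mem m.1).1 m.2).2 with h | h
      · exact Subtype.ext h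
      · exact absurd hfix (h ω)
    have hM'trans : MulAction.IsPretransitive ↥(M.map N.subtype) Ω := by
      constructor
      intro α β
      have hinjα : Function.Injective (fun m : ↥(M.map N.subtype) => m • α) := by
        intro m m' h
        have h1 : (m⁻¹ * m') • α = α := by
          rw [mul_smul]
          have h' : m • α = m' • α := h
          rw [← h', inv_smul_smul]
        exact (inv_mul_eq_one.1 (hM'semi _ α h1))
      have hbij : Function.Bijective (fun m : ↥(M.map N.subtype) => m • α) := by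
        rw [Nat.bijective_iff_injective_and_card]
        exact ⟨hinjα, by rw [hM'card, Nat.card_eq_fintype_card]⟩
      obtain ⟨m, hm⟩ := hbij.2 β
      exact ⟨m, hm⟩
    obtain ⟨a', ha'⟩ := hNreg (M.map N.subtype) hM'n hM'trans
    apply ha'
    rw [eq_bot_iff]
    intro m hm
    rw [Subgroup.mem_bot]
    exact hM'semi m a' hm

/-- A finite Zassenhaus group of odd degree is simple. -/
theorem zass_odd_simple [Finite G] [Fintype Ω] (hZ : IsZassenhausGroup G Ω)
    (hodd : Odd (Fintype.card Ω)) : IsSimpleGroup G := by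
  classical
  haveI : Fintype G := Fintype.ofFinite G
  have hZ' := hZ
  obtain ⟨hfaith, h2t, h3, hex, hNreg⟩ := hZ
  have hnt : Nontrivial G := by
    obtain ⟨g, hg, -⟩ := hex
    exact ⟨⟨g, 1, hg⟩⟩
  refine @IsSimpleGroup.mk _ _ hnt ?_
  intro N hNn
  by_cases hN : N = ⊥
  · exact Or.inl hN
  right
  obtain ⟨hcard3, htransN, a, -, Kf, hKfN, hKfa, hreg⟩ := zass_core hZ' N hN
  obtain ⟨b, hba⟩ : ∃ b : Ω, b ≠ a := by
    by_contra hcon
    push Not at hcon
    have : Fintype.card Ω ≤ 1 := Fintype.card_le_one_iff.2 (fun x y => by rw [hcon x, hcon y])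
    omega
  obtain ⟨m₀, hm₀⟩ := hodd
  -- parity of fixed points of involutions
  have hfixodd : ∀ t : G, t * t = 1 →
      (Finset.univ.filter (fun ω : Ω => t • ω = ω)).card % 2 = 1 := by
    intro t htt
    have hpar := invol_fixed (Ω := Ω) t htt
    unfold Nat.ModEq at hpar
    omega
  -- an involution fixing two points is trivial
  have hthird : ∀ t : G, t * t = 1 → ∀ x y : Ω, x ≠ y → t • x = x → t • y = y → t = 1 := by
    intro t htt x y hxy hx hy
    obtain ⟨F, hF⟩ : ∃ F : Finset Ω, F = Finset.univ.filter (fun ω : Ω => t • ω = ω) := ⟨_, rfl⟩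
    have hFodd := hfixodd t htt
    rw [← hF] at hFodd
    have hxF : x ∈ F := by rw [hF, Finset.mem_filter]; exact ⟨Finset.mem_univ _, hx⟩
    have hyF : y ∈ F := by rw [hF, Finset.mem_filter]; exact ⟨Finset.mem_univ _, hy⟩
    have h2le : 2 ≤ F.card := by
      have hsub : ({x, y} : Finset Ω) ⊆ F := by
        intro ω hω
        rw [Finset.mem_insert, Finset.mem_singleton] at hω
        rcases hω with rfl | rfl
        · exact hxF
        · exact hyF
      have := Finset.card_le_card hsub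
      rw [Finset.card_pair hxy] at this
      exact this
    have hc : ((F.erase x).erase y).card = F.card - 2 := by
      rw [Finset.card_erase_of_mem (Finset.mem_erase.2 ⟨Ne.symm hxy, hyF⟩),
        Finset.card_erase_of_mem hxF]
      omega
    obtain ⟨c, hc'⟩ : ((F.erase x).erase y).Nonempty := Finset.card_pos.1 (by omega)
    rw [Finset.mem_erase, Finset.mem_erase, hF, Finset.mem_filter] at hc'
    exact h3 t x y c hxy (Ne.symm hc'.1) (Ne.symm hc'.2.1) hx hy hc'.2.2.2
  -- an involution of N exchanging a and b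
  obtain ⟨n₁, hn₁N, hn₁⟩ := htransN b a
  have hc' : n₁ • a ≠ a := by
    intro h
    have h' : n₁ • a = n₁ • b := h.trans hn₁.symm
    exact hba (MulAction.injective n₁ h').symm
  obtain ⟨k, hk, hkc⟩ := hreg (n₁ • a) b hc' hba
  obtain ⟨g, hg⟩ : ∃ g : G, g = k * n₁ := ⟨_, rfl⟩
  have hga : g • a = b := by rw [hg, mul_smul, hkc]
  have hgb : g • b = a := by rw [hg, mul_smul, hn₁, hKfa k hk]
  have hgN : g ∈ N := by rw [hg]; exact N.mul_mem (hKfN k hk) hn₁N
  have hg2a : (g * g) • a = a := by rw [mul_smul, hga, hgb]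
  have hg2b : (g * g) • b = b := by rw [mul_smul, hgb, hga]
  have hpowfix : ∀ j : ℕ, ((g * g) ^ j) • a = a ∧ ((g * g) ^ j) • b = b := by
    intro j
    induction j with
    | zero => simp
    | succ j ih =>
      constructor
      · rw [pow_succ, mul_smul, hg2a]
        exact ih.1
      · rw [pow_succ, mul_smul, hg2b]
        exact ih.2
  have hoddord : ¬ 2 ∣ orderOf (g * g) := by
    rintro ⟨j, hj⟩
    have hpos : 0 < orderOf (g * g) := orderOf_pos _
    have hj0 : j ≠ 0 := by omega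
    have ht : (g * g) ^ j ≠ 1 := pow_ne_one_of_lt_orderOf hj0 (by omega)
    apply ht
    apply hthird _ ?_ a b (Ne.symm hba) (hpowfix j).1 (hpowfix j).2
    rw [← pow_add, ← two_mul, ← hj, pow_orderOf_eq_one]
  obtain ⟨j, hj⟩ : ∃ j, orderOf (g * g) = 2 * j + 1 := ⟨orderOf (g * g) / 2, by omega⟩
  obtain ⟨s, hs⟩ : ∃ s, s = (g * g) ^ j * g := ⟨_, rfl⟩
  have hsN : s ∈ N := by
    rw [hs]
    exact N.mul_mem (N.pow_mem (N.mul_mem hgN hgN) j) hgN
  have hsa : s • a = b := by rw [hs, mul_smul, hga, (hpowfix j).2]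
  have hsb : s • b = a := by rw [hs, mul_smul, hgb, (hpowfix j).1]
  have hss : s * s = 1 := by
    have hcomm : g * (g * g) ^ j = (g * g) ^ j * g :=
      (((Commute.refl g).mul_right (Commute.refl g)).pow_right j).eq
    rw [hs]
    calc (g * g) ^ j * g * ((g * g) ^ j * g) = (g * g) ^ j * (g * (g * g) ^ j) * g := by group
      _ = (g * g) ^ j * ((g * g) ^ j * g) * g := by rw [hcomm]
      _ = (g * g) ^ (2 * j + 1) := by rw [pow_succ, two_mul, pow_add]; group
      _ = 1 := by rw [← hj, pow_orderOf_eq_one]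
  have hs1 : s ≠ 1 := by
    rintro rfl
    rw [one_smul] at hsa
    exact hba hsa.symm
  obtain ⟨c, hsc⟩ : ∃ c : Ω, s • c = c := by
    have h1 := hfixodd s hss
    obtain ⟨c, hc⟩ : (Finset.univ.filter (fun ω : Ω => s • ω = ω)).Nonempty :=
      Finset.card_pos.1 (by omega)
    rw [Finset.mem_filter] at hc
    exact ⟨c, hc.2⟩
  have hca : c ≠ a := by
    rintro rfl
    rw [hsa] at hsc
    exact hba hsc
  have hcb : c ≠ b := by
    rintro rfl
    rw [hsb] at hsc
    exact hba hsc.symm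
  have hsfix2 : ∀ c' : Ω, s • c' = c' → c' = c := by
    intro c' hc'
    by_contra hne
    exact hs1 (hthird s hss c' c hne hc' hsc)
  -- the two-point stabiliser lies in N
  obtain ⟨Hf, hHf⟩ : ∃ Hf : Finset G, ∀ h, h ∈ Hf ↔ h • a = a ∧ h • b = b :=
    ⟨Finset.univ.filter (fun h => h • a = a ∧ h • b = b), fun h => by simp⟩
  have hsi : s⁻¹ = s := inv_eq_of_mul_eq_one_left hss
  have hθH : ∀ h ∈ Hf, h⁻¹ * (s * h * s⁻¹) ∈ Hf := by
    intro h hh
    rw [hHf] at hh ⊢
    rw [hsi]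
    constructor
    · rw [mul_smul, mul_smul, mul_smul, hsa, hh.2, hsb, inv_smul_eq_iff, hh.1]
    · rw [mul_smul, mul_smul, mul_smul, hsb, hh.1, hsa, inv_smul_eq_iff, hh.2]
  have hθinj : Set.InjOn (fun h => h⁻¹ * (s * h * s⁻¹)) (Hf : Set G) := by
    intro h hh h' hh' heq
    rw [Finset.mem_coe, hHf] at hh hh'
    have heq' : h⁻¹ * (s * h * s⁻¹) = h'⁻¹ * (s * h' * s⁻¹) := heq
    have hd : s * (h' * h⁻¹) = (h' * h⁻¹) * s := by
      have e1 : (h' * h⁻¹) * s = h' * (h⁻¹ * (s * h * s⁻¹)) * s * h⁻¹ := by group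
      rw [e1, heq']
      group
    have hda : (h' * h⁻¹) • a = a := by rw [mul_smul, inv_smul_eq_iff.2 hh.1.symm, hh'.1]
    have hdb : (h' * h⁻¹) • b = b := by rw [mul_smul, inv_smul_eq_iff.2 hh.2.symm, hh'.2]
    have hdc : (h' * h⁻¹) • c = c := by
      apply hsfix2
      rw [← mul_smul, hd, mul_smul, hsc]
    have hd1 : h' * h⁻¹ = 1 := h3 _ a b c (Ne.symm hba) (Ne.symm hcb) (Ne.symm hca) hda hdb hdc
    exact (mul_inv_eq_one.1 hd1).symm
  have hHN : ∀ h ∈ Hf, h ∈ N := by
    have himg : Hf.image (fun h => h⁻¹ * (s * h * s⁻¹)) = Hf := by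
      apply Finset.eq_of_subset_of_card_le
      · intro x hx
        rw [Finset.mem_image] at hx
        obtain ⟨h, hh, rfl⟩ := hx
        exact hθH h hh
      · rw [Finset.card_image_of_injOn hθinj]
    intro h₀ hh₀
    rw [← himg, Finset.mem_image] at hh₀
    obtain ⟨h, hh, rfl⟩ := hh₀
    have e : h⁻¹ * (s * h * s⁻¹) = (h⁻¹ * s * h⁻¹⁻¹) * s⁻¹ := by group
    rw [e]
    exact N.mul_mem (hNn.conj_mem s hsN h⁻¹) (N.inv_mem hsN)
  -- N is everything
  rw [eq_top_iff]
  intro x _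
  obtain ⟨n₂, hn₂N, hn₂⟩ := htransN a (x • a)
  have h1a : (n₂⁻¹ * x) • a = a := by rw [mul_smul, inv_smul_eq_iff, hn₂]
  have h1b : (n₂⁻¹ * x) • b ≠ a := by
    intro h
    rw [← h1a] at h
    exact hba (MulAction.injective _ h)
  obtain ⟨k₂, hk₂, hk₂b⟩ := hreg b ((n₂⁻¹ * x) • b) hba h1b
  have h2mem : k₂⁻¹ * (n₂⁻¹ * x) ∈ Hf := by
    rw [hHf]
    constructor
    · rw [mul_smul, h1a, inv_smul_eq_iff, hKfa k₂ hk₂]
    · rw [mul_smul, inv_smul_eq_iff, hk₂b]
  have hx : x = n₂ * (k₂ * (k₂⁻¹ * (n₂⁻¹ * x))) := by group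
  rw [hx]
  exact N.mul_mem hn₂N (N.mul_mem (hKfN k₂ hk₂) (hHN _ h2mem))

end

end Cfsg.Agent.Lib.Helper1
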