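import Mathlib
import Cfsg.Prelude.Def_LieExceptional
import Cfsg.Agent.Lib.Helper1.ZassA

/-!
A nontrivial normal subgroup of a finite Zassenhaus group is a Zassenhaus group (helper1).
-/

namespace Cfsg.Agent.Lib.Helper1

open Cfsg

section
variable {G Ω : Type*} [Group G] [MulAction G Ω]

/-- Two regular subgroups normalised by `N` coincide, in the presence of a set of elements of
`N` fixing `a` and transitive on the other points. -/
theorem reg_sub [Fintype Ω] (N M₁ M₂ : Subgroup G)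
    (h3 : ∀ g : G, ∀ a b c : Ω, a ≠ b → b ≠ c → a ≠ c → g • a = a → g • b = b → g • c = c → g = 1)
    (hcard3 : 3 ≤ Fintype.card Ω)
    (a : Ω) (Kf : Finset G) (hKfN : ∀ k ∈ Kf, k ∈ N) (hKfa : ∀ k ∈ Kf, k • a = a)
    (hreg : ∀ ω ω' : Ω, ω ≠ a → ω' ≠ a → ∃ k ∈ Kf, k • ω = ω')
    (hc₁ : ∀ n ∈ N, ∀ m ∈ M₁, n * m * n⁻¹ ∈ M₁) (hc₂ : ∀ n ∈ N, ∀ m ∈ M₂, n * m * n⁻¹ ∈ M₂)
    (h₁N : M₁ ≤ N) (h₂N : M₂ ≤ N)
    (hs₁ : ∀ m ∈ M₁, ∀ ω : Ω, m • ω = ω → m = 1) (hs₂ : ∀ m ∈ M₂, ∀ ω : Ω, m • ω = ω → m = 1)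
    (ht₁ : ∀ α β : Ω, ∃ m ∈ M₁, m • α = β) (ht₂ : ∀ α β : Ω, ∃ m ∈ M₂, m • α = β) :
    M₂ ≤ M₁ := by
  classical
  obtain ⟨b, hba⟩ : ∃ b : Ω, b ≠ a := by
    by_contra hcon
    push Not at hcon
    have : Fintype.card Ω ≤ 1 := Fintype.card_le_one_iff.2 (fun x y => by rw [hcon x, hcon y])
    omega
  -- a common non-identity element
  obtain ⟨x₀, hx₀1, hx₀2, hx₀ne⟩ : ∃ x₀, x₀ ∈ M₁ ∧ x₀ ∈ M₂ ∧ x₀ ≠ 1 := by
    by_contra hcon
    push Not at hcon
    have hcomm : ∀ m ∈ M₁, ∀ m₂ ∈ M₂, m * m₂ = m₂ * m := by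
      intro m hm m₂ hm₂
      have h1 : m * m₂ * m⁻¹ * m₂⁻¹ ∈ M₂ :=
        M₂.mul_mem (hc₂ m (h₁N hm) m₂ hm₂) (M₂.inv_mem hm₂)
      have h2 : m * m₂ * m⁻¹ * m₂⁻¹ ∈ M₁ := by
        have e : m * m₂ * m⁻¹ * m₂⁻¹ = m * (m₂ * m⁻¹ * m₂⁻¹) := by group
        rw [e]
        exact M₁.mul_mem hm (hc₁ m₂ (h₂N hm₂) m⁻¹ (M₁.inv_mem hm))
      have h3' := hcon _ h2 h1
      have e : m * m₂ = (m * m₂ * m⁻¹ * m₂⁻¹) * (m₂ * m) := by group
      rw [e, h3', one_mul]
    -- every element of M₁ squares to one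
    have hsq : ∀ m ∈ M₁, m * m = 1 := by
      intro m hm
      by_contra hm2
      have hm1 : m ≠ 1 := by
        rintro rfl
        exact hm2 (one_mul 1)
      obtain ⟨m₂, hm₂, hm₂a⟩ := ht₂ a (m • a)
      have he1 : m⁻¹ * m₂ ≠ 1 := by
        intro h
        have : m₂ = m := by
          have := inv_mul_eq_one.1 h
          exact this.symm
        rw [this] at hm₂
        exact hm1 (hcon m hm hm₂)
      apply he1
      have hfa : (m⁻¹ * m₂) • a = a := by rw [mul_smul, hm₂a, inv_smul_smul]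
      have hfb : (m⁻¹ * m₂) • (m • a) = m • a := by
        rw [← mul_smul, mul_assoc, ← hcomm m hm m₂ hm₂, ← mul_assoc, inv_mul_cancel, one_mul,
          hm₂a]
      have hfc : (m⁻¹ * m₂) • ((m * m) • a) = (m * m) • a := by
        rw [← mul_smul, mul_assoc, ← hcomm (m * m) (M₁.mul_mem hm hm) m₂ hm₂, ← mul_assoc,
          ← mul_assoc, inv_mul_cancel, one_mul, mul_smul, hm₂a, ← mul_smul]
      refine h3 _ a (m • a) ((m * m) • a) ?_ ?_ ?_ hfa hfb hfc
      · intro h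
        exact hm1 (hs₁ m hm a h.symm)
      · intro h
        rw [mul_smul] at h
        exact hm1 (hs₁ m hm a (MulAction.injective m h).symm)
      · intro h
        exact hm2 (hs₁ (m * m) (M₁.mul_mem hm hm) a h.symm)
    have habel : ∀ x ∈ M₁, ∀ y ∈ M₁, x * y = y * x := by
      intro x hx y hy
      have h1 := hsq (x * y) (M₁.mul_mem hx hy)
      have h2 := hsq x hx
      have h3' := hsq y hy
      calc x * y = x * (x * y * (x * y)) * y := by rw [h1, mul_one]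
        _ = (x * x) * y * x * (y * y) := by group
        _ = y * x := by rw [h2, h3', one_mul, mul_one]
    obtain ⟨m, hm, hma⟩ := ht₁ a b
    have hm1 : m ≠ 1 := by
      rintro rfl
      rw [one_smul] at hma
      exact hba hma.symm
    obtain ⟨m₂, hm₂, hm₂a⟩ := ht₂ a (m • a)
    have he1 : m⁻¹ * m₂ ≠ 1 := by
      intro h
      have : m₂ = m := (inv_mul_eq_one.1 h).symm
      rw [this] at hm₂
      exact hm1 (hcon m hm hm₂)
    apply he1
    have hfix : ∀ ω : Ω, (m⁻¹ * m₂) • ω = ω := by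
      intro ω
      obtain ⟨x, hx, rfl⟩ := ht₁ a ω
      have e1 : m⁻¹ * m₂ * x = m⁻¹ * x * m₂ := by
        rw [mul_assoc, ← hcomm x hx m₂ hm₂, ← mul_assoc]
      have e2 : m⁻¹ * x * m = x := by
        rw [mul_assoc, habel x hx m hm, ← mul_assoc, inv_mul_cancel, one_mul]
      rw [← mul_smul, e1, mul_smul, hm₂a, ← mul_smul, e2]
    obtain ⟨c, hc⟩ : ∃ c : Ω, c ≠ a ∧ c ≠ b := by
      by_contra hcon'
      push Not at hcon'
      have hsub : (Finset.univ : Finset Ω) ⊆ {a, b} := by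
        intro ω _
        rw [Finset.mem_insert, Finset.mem_singleton]
        by_cases h : ω = a
        · exact Or.inl h
        · exact Or.inr (hcon' ω h)
      have := Finset.card_le_card hsub
      rw [Finset.card_univ] at this
      have h2 : ({a, b} : Finset Ω).card ≤ 2 := Finset.card_le_two
      omega
    exact h3 _ a b c (Ne.symm hba) (Ne.symm hc.2) (Ne.symm hc.1) (hfix a) (hfix b) (hfix c)
  -- every element of M₂ is conjugate to x₀ under Kf
  intro y hy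
  by_cases hy1 : y = 1
  · rw [hy1]
    exact M₁.one_mem
  have hx₀a : x₀ • a ≠ a := fun h => hx₀ne (hs₂ x₀ hx₀2 a h)
  have hya : y • a ≠ a := fun h => hy1 (hs₂ y hy a h)
  obtain ⟨k, hk, hkx⟩ := hreg (x₀ • a) (y • a) hx₀a hya
  have hconj2 : k * x₀ * k⁻¹ ∈ M₂ := hc₂ k (hKfN k hk) x₀ hx₀2
  have hfix : (y⁻¹ * (k * x₀ * k⁻¹)) • a = a := by
    rw [mul_smul, mul_smul, mul_smul, inv_smul_eq_iff.2 (hKfa k hk).symm, hkx, inv_smul_smul]
  have h1 := hs₂ _ (M₂.mul_mem (M₂.inv_mem hy) hconj2) a hfix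
  have hyeq : y = k * x₀ * k⁻¹ := inv_mul_eq_one.1 h1
  rw [hyeq]
  exact hc₁ k (hKfN k hk) x₀ hx₀1

/-- A nontrivial normal subgroup of a finite Zassenhaus group is a Zassenhaus group. -/
theorem zass_normal_zass [Finite G] [Fintype Ω] (hZ : IsZassenhausGroup G Ω)
    (N : Subgroup G) [hNn : N.Normal] (hN : N ≠ ⊥) : IsZassenhausGroup ↥N Ω := by
  classical
  obtain ⟨hcard3, htransN, a, ⟨l, hlN, hl1, hla, b, hba, hlb⟩, Kf, hKfN, hKfa, hreg⟩ :=
    zass_core hZ N hN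
  obtain ⟨hfaith, h2t, h3, hex, hNreg⟩ := hZ
  refine ⟨?_, ?_, ?_, ?_, ?_⟩
  · exact ⟨fun {m₁ m₂} h => Subtype.ext (hfaith.eq_of_smul_eq_smul h)⟩
  · rw [MulAction.is_two_pretransitive_iff]
    intro x y x' y' hxy hx'y'
    obtain ⟨n₁, hn₁N, hn₁⟩ := htransN x a
    obtain ⟨n₂, hn₂N, hn₂⟩ := htransN x' a
    have h1 : n₁ • y ≠ a := by
      intro h
      rw [← hn₁] at h
      exact hxy (MulAction.injective n₁ h).symm
    have h2 : n₂ • y' ≠ a := by
      intro h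
      rw [← hn₂] at h
      exact hx'y' (MulAction.injective n₂ h).symm
    obtain ⟨k, hk, hky⟩ := hreg (n₁ • y) (n₂ • y') h1 h2
    refine ⟨⟨n₂⁻¹ * k * n₁, N.mul_mem (N.mul_mem (N.inv_mem hn₂N) (hKfN k hk)) hn₁N⟩, ?_, ?_⟩
    · show (n₂⁻¹ * k * n₁) • x = x'
      rw [mul_smul, mul_smul, hn₁, hKfa k hk, inv_smul_eq_iff, hn₂]
    · show (n₂⁻¹ * k * n₁) • y = y'
      rw [mul_smul, mul_smul, hky, inv_smul_smul]
  · intro g x y z hxy hyz hxz hx hy hz
    exact Subtype.ext (h3 g.1 x y z hxy hyz hxz hx hy hz)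
  · exact ⟨⟨l, hlN⟩, fun h => hl1 (congrArg Subtype.val h), a, b, Ne.symm hba, hla, hlb⟩
  · intro M hMn hMtrans
    by_contra hcon
    push Not at hcon
    -- the image of M in G
    have hM'mem : ∀ g : G, g ∈ M.map N.subtype ↔ ∃ hg : g ∈ N, (⟨g, hg⟩ : ↥N) ∈ M := by
      intro g
      rw [Subgroup.mem_map]
      constructor
      · rintro ⟨m, hm, rfl⟩
        exact ⟨m.2, hm⟩
      · rintro ⟨hg, hm⟩
        exact ⟨⟨g, hg⟩, hm, rfl⟩
    have hM'N : M.map N.subtype ≤ N := by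
      intro g hg
      obtain ⟨hgN, -⟩ := (hM'mem g).1 hg
      exact hgN
    have hM'conj : ∀ n ∈ N, ∀ m ∈ M.map N.subtype, n * m * n⁻¹ ∈ M.map N.subtype := by
      intro n hn m hm
      obtain ⟨hmN, hmM⟩ := (hM'mem m).1 hm
      rw [hM'mem]
      exact ⟨N.mul_mem (N.mul_mem hn hmN) (N.inv_mem hn), hMn.conj_mem _ hmM ⟨n, hn⟩⟩
    have hM'semi : ∀ m ∈ M.map N.subtype, ∀ ω : Ω, m • ω = ω → m = 1 := by
      intro m hm ω hfix
      obtain ⟨hmN, hmM⟩ := (hM'mem m).1 hm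
      have h1 : (⟨⟨m, hmN⟩, hmM⟩ : ↥M) ∈ MulAction.stabilizer ↥M ω := hfix
      rw [hcon ω, Subgroup.mem_bot] at h1
      exact congrArg (fun z : ↥M => (z.1.1 : G)) h1
    have hM'trans : ∀ α β : Ω, ∃ m ∈ M.map N.subtype, m • α = β := by
      intro α β
      obtain ⟨m, hm⟩ := hMtrans.exists_smul_eq α β
      exact ⟨m.1.1, (hM'mem _).2 ⟨m.1.2, m.2⟩, hm⟩
    have hM'n : (M.map N.subtype).Normal := by
      constructor
      intro m hm g
      -- the conjugate subgroup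
      have hle := reg_sub N (M.map N.subtype) ((M.map N.subtype).map (MulAut.conj g).toMonoidHom)
        h3 hcard3 a Kf hKfN hKfa hreg hM'conj
        (by
          intro n hn x hx
          rw [Subgroup.mem_map] at hx ⊢
          obtain ⟨m', hm', rfl⟩ := hx
          refine ⟨(g⁻¹ * n * g) * m' * (g⁻¹ * n * g)⁻¹, hM'conj _ ?_ m' hm', ?_⟩
          · have := hNn.conj_mem n hn g⁻¹
            rw [inv_inv] at this
            exact this
          · show g * ((g⁻¹ * n * g) * m' * (g⁻¹ * n * g)⁻¹) * g⁻¹ = n * (g * m' * g⁻¹) * n⁻¹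
            group)
        hM'N
        (by
          intro x hx
          rw [Subgroup.mem_map] at hx
          obtain ⟨m', hm', rfl⟩ := hx
          exact hNn.conj_mem m' (hM'N hm') g)
        hM'semi
        (by
          intro x hx ω hfix
          rw [Subgroup.mem_map] at hx
          obtain ⟨m', hm', rfl⟩ := hx
          have hfix' : (g * m' * g⁻¹) • ω = ω := hfix
          rw [mul_smul, mul_smul] at hfix'
          have h1 : m' • g⁻¹ • ω = g⁻¹ • ω := by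
            rw [eq_inv_smul_iff]
            exact hfix'
          have h2 := hM'semi m' hm' _ h1
          rw [h2]
          show g * 1 * g⁻¹ = 1
          group)
        hM'trans
        (by
          intro α β
          obtain ⟨m', hm', hm'a⟩ := hM'trans (g⁻¹ • α) (g⁻¹ • β)
          refine ⟨g * m' * g⁻¹, Subgroup.mem_map.2 ⟨m', hm', rfl⟩, ?_⟩
          rw [mul_smul, mul_smul, hm'a, smul_inv_smul])
      exact hle (Subgroup.mem_map.2 ⟨m, hm, rfl⟩)
    have hM'pre : MulAction.IsPretransitive ↥(M.map N.subtype) Ω := by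
      constructor
      intro α β
      obtain ⟨m, hm, h⟩ := hM'trans α β
      exact ⟨⟨m, hm⟩, h⟩
    obtain ⟨a', ha'⟩ := hNreg (M.map N.subtype) hM'n hM'pre
    apply ha'
    rw [eq_bot_iff]
    intro m hm
    rw [Subgroup.mem_bot]
    exact Subtype.ext (hM'semi m.1 m.2 a' hm)

end

end Cfsg.Agent.Lib.Helper1
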